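import Mathlib
import Cfsg.Agent.Lib.Helper22.AG.Defs

set_option autoImplicit false

/-!
Package GT4 of project AG (S3072): the chain-connected case, by package SPE applied to
`N_G(U)`.
-/

namespace Cfsg.Agent.Lib.Helper75.AG

open Cfsg Cfsg.Agent.Lib.Helper33

universe u

theorem pkgGT4 (hSPE : Cfsg.Agent.Lib.Helper22.AG.PkgSPE.{u}) :
    Cfsg.Agent.Lib.Helper22.AG.PkgGT4.{u} := by
  intro G _ _ p _ P U M hP hUP hsyl hcc hM
  have hT0 : IsPGroup p ((P ⊓ Subgroup.normalizer (U : Set G)).subgroupOf
      (Subgroup.normalizer (U : Set G))) := hsyl.2.1.comap_subtype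
  have hidx : ¬ p ∣ ((P ⊓ Subgroup.normalizer (U : Set G)).subgroupOf
      (Subgroup.normalizer (U : Set G))).index := hsyl.2.2
  have hS : ((hT0.toSylow hidx : Sylow p ↥(Subgroup.normalizer (U : Set G))) :
      Subgroup ↥(Subgroup.normalizer (U : Set G))) =
      (P ⊓ Subgroup.normalizer (U : Set G)).subgroupOf (Subgroup.normalizer (U : Set G)) :=
    IsPGroup.toSylow_coe hT0 hidx
  haveI : (U.subgroupOf (Subgroup.normalizer (U : Set G))).Normal :=
    Subgroup.normal_in_normalizer
  have hVS : U.subgroupOf (Subgroup.normalizer (U : Set G)) <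
      ((hT0.toSylow hidx : Sylow p ↥(Subgroup.normalizer (U : Set G))) :
        Subgroup ↥(Subgroup.normalizer (U : Set G))) := by
    rw [hS]
    obtain ⟨x, hx, hxU⟩ := exists_mem_normalizer_not_mem hP hUP.le hUP.ne
    refine lt_of_le_of_ne ?_ ?_
    · intro y hy
      rw [Subgroup.mem_subgroupOf] at hy ⊢
      exact ⟨hUP.le hy, y.2⟩
    · intro heq
      apply hxU
      have h1 : (⟨x, hx.2⟩ : ↥(Subgroup.normalizer (U : Set G))) ∈
          (P ⊓ Subgroup.normalizer (U : Set G)).subgroupOf (Subgroup.normalizer (U : Set G)) :=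
        Subgroup.mem_subgroupOf.2 hx
      rw [← heq] at h1
      exact Subgroup.mem_subgroupOf.1 h1
  have hM' : ∀ D : Subgroup ↥(Subgroup.normalizer (U : Set G)),
      U.subgroupOf (Subgroup.normalizer (U : Set G)) < D →
      D ≤ ((hT0.toSylow hidx : Sylow p ↥(Subgroup.normalizer (U : Set G))) :
        Subgroup ↥(Subgroup.normalizer (U : Set G))) →
      Subgroup.normalizer (D : Set ↥(Subgroup.normalizer (U : Set G))) ≤
        M.subgroupOf (Subgroup.normalizer (U : Set G)) := by
    intro D hVD hDS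
    have hUD : U < D.map (Subgroup.normalizer (U : Set G)).subtype := by
      obtain ⟨d, hd, hdV⟩ := SetLike.exists_of_lt hVD
      refine lt_of_le_of_ne ?_ ?_
      · intro u hu
        exact ⟨⟨u, Subgroup.le_normalizer hu⟩, hVD.le (Subgroup.mem_subgroupOf.2 hu), rfl⟩
      · intro heq
        apply hdV
        rw [Subgroup.mem_subgroupOf]
        have h1 : ((d : ↥(Subgroup.normalizer (U : Set G))) : G) ∈
            D.map (Subgroup.normalizer (U : Set G)).subtype := Subgroup.mem_map_of_mem _ hd
        exact (SetLike.ext_iff.1 heq _).2 h1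
    have hDP : D.map (Subgroup.normalizer (U : Set G)).subtype ≤ P := by
      rintro _ ⟨d, hd, rfl⟩
      have h1 := hDS hd
      rw [hS, Subgroup.mem_subgroupOf] at h1
      exact h1.1
    intro x hx
    rw [Subgroup.mem_subgroupOf]
    apply hM _ hUD hDP
    refine ⟨x.2, ?_⟩
    exact Subgroup.le_normalizer_map _ (Subgroup.mem_map_of_mem _ hx)
  have h := hSPE (U.subgroupOf (Subgroup.normalizer (U : Set G)))
    (hT0.toSylow hidx) (M.subgroupOf (Subgroup.normalizer (U : Set G))) hVS hM' hcc
  exact Subgroup.subgroupOf_eq_top.1 h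

end Cfsg.Agent.Lib.Helper75.AG
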