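import Mathlib
import Cfsg.Agent.Lib.Helper22.AG.Defs
import Cfsg.Agent.S3056

set_option autoImplicit false

/-!
Package SPE of project AG (S3072): `V ⊴ K`, `V < S` Sylow, `M ≥ N_K(D)` for all `V < D ≤ S`,
and `K/V` chain-connected force `M = K`.
-/

namespace Cfsg.Agent.Lib.Helper75.AG

open Cfsg Cfsg.Agent.Lib.Helper33

universe u

section

variable {K : Type u} [Group K]

theorem cj_of_normal (V : Subgroup K) [hV : V.Normal] (m : K) : cj m V = V := by
  ext x
  rw [mem_cj]
  constructor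
  · intro h
    have := hV.conj_mem _ h m
    have e : m * (m⁻¹ * x * m) * m⁻¹ = x := by group
    rwa [e] at this
  · intro h
    have := hV.conj_mem _ h m⁻¹
    rwa [inv_inv] at this

variable [Finite K] {p : ℕ} [Fact p.Prime]

theorem sylIn_of_sylow_le (S : Sylow p K) {M : Subgroup K} (hSM : (S : Subgroup K) ≤ M) :
    SylIn p (S : Subgroup K) M := by
  refine ⟨hSM, S.2, fun h => S.not_dvd_index ?_⟩
  have := Subgroup.relIndex_mul_relIndex (S : Subgroup K) M ⊤ hSM le_top
  rw [Subgroup.relIndex_top_right, Subgroup.relIndex_top_right] at this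
  rw [← this]; exact Dvd.dvd.mul_right h _

/-- `V < S ∩ hSh⁻¹` forces `h ∈ M`. -/
theorem spe_star (V : Subgroup K) [V.Normal] (S : Sylow p K) (M : Subgroup K)
    (hM : ∀ D : Subgroup K, V < D → D ≤ (S : Subgroup K) → Subgroup.normalizer (D : Set K) ≤ M)
    (hVS : V < (S : Subgroup K)) :
    ∀ n : ℕ, ∀ h : K,
      Nat.card (S : Subgroup K) - Nat.card ↥((S : Subgroup K) ⊓ cj h (S : Subgroup K)) = n →
      V < (S : Subgroup K) ⊓ cj h (S : Subgroup K) → h ∈ M := by
  have hSM : (S : Subgroup K) ≤ M := Subgroup.le_normalizer.trans (hM _ hVS le_rfl)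
  have hsyl := sylIn_of_sylow_le S hSM
  intro n
  induction n using Nat.strong_induction_on with
  | _ n ih =>
    intro h hn hV
    by_cases hES : (S : Subgroup K) ⊓ cj h (S : Subgroup K) = S
    · have h1 : (S : Subgroup K) ≤ cj h (S : Subgroup K) := inf_eq_left.1 hES
      have h2 : (S : Subgroup K) = cj h (S : Subgroup K) :=
        eq_of_le_of_card_le h1 (by rw [card_cj])
      have h3 : h ∈ Subgroup.normalizer ((S : Subgroup K) : Set K) :=
        mem_normalizer_iff_cj.2 h2.symm
      exact hM _ hVS le_rfl h3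
    · have hET : (S : Subgroup K) ⊓ cj h (S : Subgroup K) ≠ cj h (S : Subgroup K) := by
        intro h1
        apply hES
        have h2 : cj h (S : Subgroup K) ≤ S := inf_eq_right.1 h1
        have h3 : cj h (S : Subgroup K) = S := eq_of_le_of_card_le h2 (by rw [card_cj])
        rw [h3, inf_idem]
      have hTp : IsPGroup p (cj h (S : Subgroup K)) := isPGroup_cj S.2
      have hcard := card_lt_card_inf_normalizer hTp
        (inf_le_right : (S : Subgroup K) ⊓ cj h (S : Subgroup K) ≤ cj h (S : Subgroup K)) hET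
      have hFM : cj h (S : Subgroup K) ⊓
          Subgroup.normalizer (((S : Subgroup K) ⊓ cj h (S : Subgroup K) : Subgroup K) : Set K)
            ≤ M := inf_le_right.trans (hM _ hV inf_le_left)
      have hFp : IsPGroup p ↥(cj h (S : Subgroup K) ⊓
          Subgroup.normalizer (((S : Subgroup K) ⊓ cj h (S : Subgroup K) : Subgroup K) : Set K)) :=
        hTp.to_le inf_le_left
      obtain ⟨m, hmM, hm⟩ := hsyl.exists_cj_le hFM hFp
      have hle : cj m (cj h (S : Subgroup K) ⊓
          Subgroup.normalizer (((S : Subgroup K) ⊓ cj h (S : Subgroup K) : Subgroup K) : Set K))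
            ≤ (S : Subgroup K) ⊓ cj (m * h) (S : Subgroup K) := by
        refine le_inf hm ?_
        rw [cj_mul]
        exact cj_mono inf_le_left
      have hc2 := Subgroup.card_le_of_le hle
      rw [card_cj] at hc2
      have hVle : V ≤ (S : Subgroup K) ⊓ cj (m * h) (S : Subgroup K) := by
        refine le_trans ?_ hle
        have hVF : V ≤ cj h (S : Subgroup K) ⊓
            Subgroup.normalizer (((S : Subgroup K) ⊓ cj h (S : Subgroup K) : Subgroup K) : Set K) :=
          hV.le.trans (le_inf inf_le_right Subgroup.le_normalizer)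
        have := cj_mono (g := m) hVF
        rwa [cj_of_normal V m] at this
      have hV' : V < (S : Subgroup K) ⊓ cj (m * h) (S : Subgroup K) := by
        refine lt_of_le_of_ne hVle ?_
        intro heq
        have h1 : Nat.card V ≤ Nat.card ↥((S : Subgroup K) ⊓ cj h (S : Subgroup K)) :=
          Subgroup.card_le_of_le hV.le
        have h2 : Nat.card ↥((S : Subgroup K) ⊓ cj (m * h) (S : Subgroup K)) = Nat.card V := by
          rw [← heq]
        omega
      have hle2 : Nat.card ↥((S : Subgroup K) ⊓ cj (m * h) (S : Subgroup K)) ≤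
          Nat.card (S : Subgroup K) := Subgroup.card_le_of_le inf_le_left
      have := ih _ (by omega) (m * h) rfl hV'
      exact (Subgroup.mul_mem_cancel_left M hmM).1 this

end

theorem pkgSPE : Cfsg.Agent.Lib.Helper22.AG.PkgSPE.{u} := by
  intro K _ _ p _ V _ S M hVS hM hcc
  by_contra hMtop
  have hSM : (S : Subgroup K) ≤ M := Subgroup.le_normalizer.trans (hM _ hVS le_rfl)
  have hVM : V ≤ M := hVS.le.trans hSM
  have hsyl := sylIn_of_sylow_le S hSM
  have hstar := spe_star V S M hM hVS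
  have hker : (QuotientGroup.mk' V).ker ≤ M := by rw [QuotientGroup.ker_mk']; exact hVM
  have hcomap : (M.map (QuotientGroup.mk' V)).comap (QuotientGroup.mk' V) = M :=
    Subgroup.comap_map_eq_self hker
  have hmemM : ∀ x : K, (QuotientGroup.mk' V) x ∈ M.map (QuotientGroup.mk' V) → x ∈ M := by
    intro x hx
    rw [← hcomap]; exact hx
  have hone : ∀ x : K, (QuotientGroup.mk' V) x = 1 ↔ x ∈ V := fun x => QuotientGroup.eq_one_iff x
  apply (Cfsg.Agent.S3056.result (G := K ⧸ V) p).2 ?_ hcc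
  refine ⟨M.map (QuotientGroup.mk' V), ?_, ?_, ?_⟩
  · intro htop
    apply hMtop
    rw [← hcomap, htop, Subgroup.comap_top]
  · obtain ⟨x, hxS, hxV⟩ := SetLike.exists_of_lt hVS
    have hx1 : (QuotientGroup.mk' V) x ≠ 1 := fun h1 => hxV ((hone x).1 h1)
    have hxM : (QuotientGroup.mk' V) x ∈ M.map (QuotientGroup.mk' V) :=
      Subgroup.mem_map_of_mem _ (hSM hxS)
    obtain ⟨k, hk⟩ := S.2 ⟨x, hxS⟩
    have hxk : x ^ (p ^ k) = 1 := by
      have := congrArg Subtype.val hk
      simpa using this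
    have hpow : ((QuotientGroup.mk' V) x) ^ (p ^ k) = 1 := by
      rw [← map_pow, hxk, map_one]
    have hdvd : orderOf ((QuotientGroup.mk' V) x) ∣ p ^ k := orderOf_dvd_of_pow_eq_one hpow
    obtain ⟨j, hj, hjeq⟩ := (Nat.dvd_prime_pow Fact.out).1 hdvd
    have hj0 : j ≠ 0 := by
      rintro rfl
      rw [pow_zero, orderOf_eq_one_iff] at hjeq
      exact hx1 hjeq
    have h2 : p ∣ orderOf ((QuotientGroup.mk' V) x) := by rw [hjeq]; exact dvd_pow_self p hj0
    have h3 : orderOf ((QuotientGroup.mk' V) x) ∣ Nat.card (M.map (QuotientGroup.mk' V)) := by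
      have := orderOf_dvd_natCard (⟨(QuotientGroup.mk' V) x, hxM⟩ : M.map (QuotientGroup.mk' V))
      rwa [Subgroup.orderOf_mk] at this
    exact h2.trans h3
  · intro g' hg' hdiv
    obtain ⟨g, rfl⟩ := QuotientGroup.mk'_surjective V g'
    have hgM : g ∉ M := fun h => hg' (Subgroup.mem_map_of_mem _ h)
    obtain ⟨y, hy⟩ := exists_prime_orderOf_dvd_card' p hdiv
    have hyo : orderOf (y : K ⧸ V) = p := by rw [Subgroup.orderOf_coe]; exact hy
    obtain ⟨hy1, hy2⟩ := Subgroup.mem_inf.1 y.2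
    obtain ⟨x, hx⟩ := QuotientGroup.mk'_surjective V (y : K ⧸ V)
    have hVD : V ≤ (Subgroup.zpowers (y : K ⧸ V)).comap (QuotientGroup.mk' V) := by
      intro v hv
      show (QuotientGroup.mk' V) v ∈ Subgroup.zpowers (y : K ⧸ V)
      rw [(hone v).2 hv]; exact one_mem _
    have hxD : x ∈ (Subgroup.zpowers (y : K ⧸ V)).comap (QuotientGroup.mk' V) := by
      show (QuotientGroup.mk' V) x ∈ Subgroup.zpowers (y : K ⧸ V)
      rw [hx]; exact Subgroup.mem_zpowers _
    have hxV : x ∉ V := by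
      intro h
      have h1 : (QuotientGroup.mk' V) x = 1 := (hone x).2 h
      rw [hx, ← orderOf_eq_one_iff, hyo] at h1
      exact (Fact.out : p.Prime).one_lt.ne' h1
    have hVltD : V < (Subgroup.zpowers (y : K ⧸ V)).comap (QuotientGroup.mk' V) :=
      lt_of_le_of_ne hVD (fun h => hxV (h ▸ hxD))
    have hDM : (Subgroup.zpowers (y : K ⧸ V)).comap (QuotientGroup.mk' V) ≤ M := by
      intro d hd
      apply hmemM
      exact (Subgroup.zpowers_le.2 hy1) hd
    have hVp : IsPGroup p V := S.2.to_le hVS.le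
    have hDp : IsPGroup p ↥((Subgroup.zpowers (y : K ⧸ V)).comap (QuotientGroup.mk' V)) := by
      intro d
      have hd : (QuotientGroup.mk' V) (d : K) ∈ Subgroup.zpowers (y : K ⧸ V) := d.2
      obtain ⟨n, hn⟩ := Subgroup.mem_zpowers_iff.1 hd
      have h1 : (QuotientGroup.mk' V) ((d : K) ^ p) = 1 := by
        rw [map_pow, ← hn, ← zpow_natCast, ← zpow_mul, mul_comm, zpow_mul, zpow_natCast,
          ← hyo, pow_orderOf_eq_one, one_zpow]
      have h2 : (d : K) ^ p ∈ V := (hone _).1 h1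
      obtain ⟨k, hk⟩ := hVp ⟨(d : K) ^ p, h2⟩
      have h3 : ((d : K) ^ p) ^ (p ^ k) = 1 := by
        have := congrArg Subtype.val hk
        simpa using this
      refine ⟨k + 1, ?_⟩
      apply Subtype.ext
      rw [Subgroup.coe_pow, Subgroup.coe_one, pow_succ', pow_mul]
      exact h3
    have hDg : cj g⁻¹ ((Subgroup.zpowers (y : K ⧸ V)).comap (QuotientGroup.mk' V)) ≤ M := by
      intro d hd
      rw [mem_cj, inv_inv] at hd
      have h1 : (QuotientGroup.mk' V) (g * d * g⁻¹) ∈
          cj ((QuotientGroup.mk' V) g) (M.map (QuotientGroup.mk' V)) :=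
        (Subgroup.zpowers_le.2 hy2) hd
      rw [mem_cj] at h1
      apply hmemM
      have h2 : ((QuotientGroup.mk' V) g)⁻¹ * (QuotientGroup.mk' V) (g * d * g⁻¹) *
          (QuotientGroup.mk' V) g = (QuotientGroup.mk' V) d := by
        rw [← map_inv, ← map_mul, ← map_mul]; congr 1; group
      rwa [h2] at h1
    obtain ⟨m₁, hm₁M, hm₁⟩ := hsyl.exists_cj_le hDM hDp
    obtain ⟨m₂, hm₂M, hm₂⟩ := hsyl.exists_cj_le hDg (isPGroup_cj hDp)
    have hh : cj (m₂ * g⁻¹ * m₁⁻¹)
        (cj m₁ ((Subgroup.zpowers (y : K ⧸ V)).comap (QuotientGroup.mk' V))) =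
        cj m₂ (cj g⁻¹ ((Subgroup.zpowers (y : K ⧸ V)).comap (QuotientGroup.mk' V))) := by
      rw [← cj_mul, ← cj_mul]; congr 1; group
    have hle : cj m₂ (cj g⁻¹ ((Subgroup.zpowers (y : K ⧸ V)).comap (QuotientGroup.mk' V))) ≤
        (S : Subgroup K) ⊓ cj (m₂ * g⁻¹ * m₁⁻¹) (S : Subgroup K) := by
      refine le_inf hm₂ ?_
      rw [← hh]; exact cj_mono hm₁
    have hVle : V ≤ cj m₂ (cj g⁻¹ ((Subgroup.zpowers (y : K ⧸ V)).comap (QuotientGroup.mk' V))) := by
      rw [← cj_mul]
      have := cj_mono (g := m₂ * g⁻¹) hVD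
      rwa [cj_of_normal V _] at this
    have hV' : V < (S : Subgroup K) ⊓ cj (m₂ * g⁻¹ * m₁⁻¹) (S : Subgroup K) := by
      refine lt_of_lt_of_le (lt_of_le_of_ne hVle ?_) hle
      intro heq
      have h1 := card_lt_of_lt hVltD
      have h2 : Nat.card ↥(cj m₂ (cj g⁻¹
          ((Subgroup.zpowers (y : K ⧸ V)).comap (QuotientGroup.mk' V)))) =
          Nat.card ↥((Subgroup.zpowers (y : K ⧸ V)).comap (QuotientGroup.mk' V)) := by
        rw [card_cj, card_cj]
      rw [← heq] at h2
      omega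
    have hhM := hstar _ _ rfl hV'
    apply hgM
    have e : g⁻¹ = m₂⁻¹ * (m₂ * g⁻¹ * m₁⁻¹) * m₁ := by group
    have h3 : g⁻¹ ∈ M := by
      rw [e]; exact M.mul_mem (M.mul_mem (M.inv_mem hm₂M) hhM) hm₁M
    exact (Subgroup.inv_mem_iff M).1 h3

end Cfsg.Agent.Lib.Helper75.AG
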